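import Cfsg.Agent.H694.XZ.Sq

/-!
# S4791 + S4927: two more members from a sum of squares (helper761, after helper694)

`two_lt` : `n` members of `X0` with sum of squares of the degrees `s`, `-s` not a square modulo `p`: `n + 2 ≤ |X0|`.
-/

set_option autoImplicit false

open Cfsg

namespace Cfsg.Agent.H761.XZ

open Cfsg.Agent.Characters Cfsg.Agent.Characters.Core Cfsg.Agent.H674.XZ

universe u

variable {p : ℕ} {M : Ideal AlgInt} {G : Type u} [Group G] [Finite G]

/-- `n` known members, minus the sum of the squares of their degrees is not a square: there are two more. -/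
theorem two_lt [hp : Fact p.Prime] (hM : IsPModular p M) (hd : p ∣ Nat.card G) {ι : Type*} [Fintype ι]
    (χ : ι → IrrCharacter G) (hinj : Function.Injective χ) (hmem : ∀ i, Mem0 p M (χ i))
    (hs : ∀ r : ℤ, ¬ (p : ℤ) ∣ (∑ i, (charDegree (χ i : G → ℂ) : ℤ) * charDegree (χ i : G → ℂ)) + r * r) :
    Fintype.card ι + 2 ≤ x0 p M G := by
  classical
  have h1 := H694.XZ.lt_x0 hM hd χ hinj hmem (by
    have := hs 0
    rwa [mul_zero, add_zero] at this)
  -- one more member
  obtain ⟨ψ, hψ, hne⟩ : ∃ ψ : IrrCharacter G, Mem0 p M ψ ∧ ∀ i, χ i ≠ ψ := by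
    by_contra hcon
    push Not at hcon
    have hsur : Function.Surjective (fun i => (⟨χ i, hmem i⟩ : {χ : IrrCharacter G // Mem0 p M χ})) := by
      rintro ⟨ψ, hψ⟩
      obtain ⟨i, hi⟩ := hcon ψ hψ
      exact ⟨i, Subtype.ext hi⟩
    have h2 : x0 p M G ≤ Nat.card ι := Nat.card_le_card_of_surjective _ hsur
    rw [Nat.card_eq_fintype_card] at h2
    omega
  have h2 := H694.XZ.lt_x0 hM hd (ι := Option ι) (fun o => o.elim ψ χ) (by
      intro a b hab
      rcases a with _ | a <;> rcases b with _ | b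
      · rfl
      · exact absurd (hab : ψ = χ b).symm (hne b)
      · exact absurd (hab : χ a = ψ) (hne a)
      · exact congrArg some (hinj hab)) (by
      intro a
      rcases a with _ | a
      · exact hψ
      · exact hmem a) (by
      rw [Fintype.sum_option]
      have h3 := hs (charDegree (ψ : G → ℂ) : ℤ)
      rw [add_comm] at h3
      exact h3)
  rw [Fintype.card_option] at h2
  omega

/-- the same with the degrees modulo `p` -/
theorem two_lt_of [hp : Fact p.Prime] (hM : IsPModular p M) (hd : p ∣ Nat.card G) {ι : Type*} [Fintype ι]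
    (χ : ι → IrrCharacter G) (hinj : Function.Injective χ) (hmem : ∀ i, Mem0 p M (χ i)) (d : ι → ℤ)
    (hdeg : ∀ i, (charDegree (χ i : G → ℂ) : ℤ) ≡ d i [ZMOD p])
    (hs : ∀ r : ZMod p, ((∑ i, d i * d i : ℤ) : ZMod p) + r * r ≠ 0) : Fintype.card ι + 2 ≤ x0 p M G := by
  refine two_lt hM hd χ hinj hmem fun r h => ?_
  apply hs (r : ZMod p)
  rw [← Int.cast_mul, ← Int.cast_add, ZMod.intCast_zmod_eq_zero_iff_dvd]
  have h1 : (∑ i, (charDegree (χ i : G → ℂ) : ℤ) * charDegree (χ i : G → ℂ)) ≡ ∑ i, d i * d i [ZMOD p] := by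
    have key : ∀ s : Finset ι, (∑ i ∈ s, (charDegree (χ i : G → ℂ) : ℤ) * charDegree (χ i : G → ℂ)) ≡
        ∑ i ∈ s, d i * d i [ZMOD p] := by
      classical
      intro s
      induction s using Finset.induction_on with
      | empty => rfl
      | insert a s ha ih =>
        rw [Finset.sum_insert ha, Finset.sum_insert ha]
        exact ((hdeg a).mul (hdeg a)).add ih
    exact key _
  exact Int.modEq_zero_iff_dvd.1 (((h1.add_right (r * r)).symm).trans (Int.modEq_zero_iff_dvd.2 h))

theorem key_thirteen : ∀ r : ZMod 13, ((11 : ℤ) : ZMod 13) + r * r ≠ 0 := by decide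

/-- `p = 13`, five members of degrees `1, 1, -2, -2, 1` : `|X0| ≥ 7` -/
theorem seven_of_five [hp : Fact (Nat.Prime 13)] (hM : IsPModular 13 M) (hd : 13 ∣ Nat.card G)
    (χ : Fin 5 → IrrCharacter G) (hinj : Function.Injective χ) (hmem : ∀ i, Mem0 13 M (χ i))
    (hdeg : ∀ i, (charDegree (χ i : G → ℂ) : ℤ) ≡ (![1, 1, -2, -2, 1] : Fin 5 → ℤ) i [ZMOD 13]) : 7 ≤ x0 13 M G := by
  have h := two_lt_of hM hd χ hinj hmem ![1, 1, -2, -2, 1] hdeg (by
    have h1 : (∑ i : Fin 5, (![1, 1, -2, -2, 1] : Fin 5 → ℤ) i * (![1, 1, -2, -2, 1] : Fin 5 → ℤ) i) = 11 := by decide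
    rw [h1]
    exact key_thirteen)
  rwa [Fintype.card_fin] at h

end Cfsg.Agent.H761.XZ
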